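import Mathlib
import Cfsg.Agent.H7.NBpComp

/-!
# Homomorphisms and groups with more than one `p`-block

* `nb_of_map`, `nb_of_quot` : `p`-versions of the rules of helper128 (`H128.ObPsl`).
-/

set_option autoImplicit false

namespace Cfsg.Agent.H7.NBp

open Cfsg Matrix

/-- `φ : L → H` with central kernel, commuting with the `p`-group `Q`, image normalized by `C_H(Q)` -/
theorem nb_of_map {p : ℕ} [Fact p.Prime] {L H : Type*} [Group L] [Group H] [Finite L] [Finite H] (Q : Subgroup H)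
    (hQ : IsPGroup p Q) (φ : L →* H) (hker : φ.ker ≤ Subgroup.center L)
    (hc : ∀ q ∈ Q, ∀ l, q * φ l = φ l * q)
    (hn : ∀ c ∈ Subgroup.centralizer (Q : Set H), ∀ l, c * φ l * c⁻¹ ∈ φ.range)
    (h : NB p (L ⧸ Subgroup.center L)) : NB p H := by
  have hL : NB p L := NB.of_surjective (QuotientGroup.mk' (Subgroup.center L))
    (QuotientGroup.mk'_surjective _) (by rw [QuotientGroup.ker_mk']) h
  -- the surjection from the range
  let e := QuotientGroup.quotientKerEquivRange φ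
  let f0 : L ⧸ φ.ker →* L ⧸ Subgroup.center L := QuotientGroup.map φ.ker (Subgroup.center L)
    (MonoidHom.id L) (by rw [Subgroup.comap_id]; exact hker)
  let f : φ.range →* L ⧸ Subgroup.center L := f0.comp e.symm.toMonoidHom
  have he : ∀ l : L, e.symm ⟨φ l, l, rfl⟩ = (QuotientGroup.mk l : L ⧸ φ.ker) := by
    intro l
    rw [MulEquiv.symm_apply_eq]
    rfl
  have hfl : ∀ l : L, f ⟨φ l, l, rfl⟩ = (QuotientGroup.mk l : L ⧸ Subgroup.center L) := by
    intro l
    show f0 (e.symm ⟨φ l, l, rfl⟩) = _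
    rw [he]
    rfl
  refine NB.of_cover Q hQ φ.range ?_ ?_ f ?_ ?_ h
  · rintro _ ⟨l, rfl⟩
    rw [Subgroup.mem_centralizer_iff]
    intro q hq
    exact hc q hq l
  · rintro c hc' _ ⟨l, rfl⟩
    exact hn c hc' l
  · intro x
    obtain ⟨l, rfl⟩ := QuotientGroup.mk_surjective x
    exact ⟨⟨φ l, l, rfl⟩, hfl l⟩
  · rintro ⟨_, l, rfl⟩ hx
    rw [MonoidHom.mem_ker, hfl, QuotientGroup.eq_one_iff] at hx
    rw [Subgroup.mem_center_iff]
    rintro ⟨_, m, rfl⟩
    apply Subtype.ext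
    show φ m * φ l = φ l * φ m
    rw [← map_mul, ← map_mul, (Subgroup.mem_center_iff.1 hx) m]

/-- the same for a quotient by the center -/
theorem nb_of_quot {p : ℕ} [Fact p.Prime] {L G : Type*} [Group L] [Group G] [Finite L] [Finite G] (t : G)
    (ht : ∃ k : ℕ, t ^ p ^ k ∈ Subgroup.center G) (φ : L →* G)
    (hker : ∀ l, φ l ∈ Subgroup.center G → l ∈ Subgroup.center L)
    (hc : ∀ l, t * φ l = φ l * t)
    (hn : ∀ g z : G, z ∈ Subgroup.center G → g * t = z * (t * g) → ∀ l, ∃ l', g * φ l * g⁻¹ = φ l')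
    (h : NB p (L ⧸ Subgroup.center L)) : NB p (G ⧸ Subgroup.center G) := by
  let π : G →* G ⧸ Subgroup.center G := QuotientGroup.mk' _
  have hπ : ∀ g, π g = (QuotientGroup.mk g : G ⧸ Subgroup.center G) := fun g => rfl
  have hQ : IsPGroup p (Subgroup.zpowers (π t)) := by
    obtain ⟨k, hk⟩ := ht
    rintro ⟨x, hx⟩
    obtain ⟨i, rfl⟩ := Subgroup.mem_zpowers_iff.1 hx
    refine ⟨k, Subtype.ext ?_⟩
    show (π t ^ i) ^ p ^ k = 1
    rw [← zpow_natCast, ← _root_.zpow_mul, mul_comm, _root_.zpow_mul, zpow_natCast, ← map_pow]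
    have : π (t ^ p ^ k) = 1 := (QuotientGroup.eq_one_iff _).2 hk
    rw [this, _root_.one_zpow]
  refine nb_of_map (Subgroup.zpowers (π t)) hQ (π.comp φ) ?_ ?_ ?_ h
  · intro l hl
    rw [MonoidHom.mem_ker] at hl
    exact hker l ((QuotientGroup.eq_one_iff _).1 hl)
  · intro q hq l
    obtain ⟨i, rfl⟩ := Subgroup.mem_zpowers_iff.1 hq
    have h1 : Commute (π t) (π (φ l)) := by
      show π t * π (φ l) = π (φ l) * π t
      rw [← map_mul, ← map_mul, hc]
    exact h1.zpow_left i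
  · intro c hc' l
    obtain ⟨g, rfl⟩ := QuotientGroup.mk_surjective c
    have h1 : π t * π g = π g * π t :=
      (Subgroup.mem_centralizer_iff.1 hc') _ (Subgroup.mem_zpowers _)
    rw [← map_mul, ← map_mul] at h1
    have h2 : (t * g)⁻¹ * (g * t) ∈ Subgroup.center G := QuotientGroup.eq.1 h1
    obtain ⟨l', hl'⟩ := hn g _ h2 (by
      rw [(Subgroup.mem_center_iff.1 h2 (t * g)).symm]
      group) l
    refine ⟨l', ?_⟩
    show π (φ l') = π g * π (φ l) * (π g)⁻¹
    rw [← hl', map_mul, map_mul, map_inv]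



end Cfsg.Agent.H7.NBp
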