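import Mathlib
import Cfsg.Agent.H7.NBpComp
import Cfsg.Agent.H113.PSL.Main
import Cfsg.Agent.H690.LTwo
import Cfsg.Agent.S0243
import Cfsg.Agent.Blocks.Knorr

/-!
# `PSL_n(q)` has more than one `p`-block: degrees

* `cusp` : `p` does not divide `1 + q + ... + q^(n-1)`;
* `hyper` : `n ≥ 3`, `p` does not divide `q^(n-1) - 1`;
* `two` : `n = 2`, `p ∣ q + 1`, `q ≠ 5`.
-/

set_option autoImplicit false

namespace Cfsg.Agent.H7.NBPsl

open Cfsg Matrix Cfsg.Agent.H7.NBp Cfsg.Agent.Characters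

section

variable {F : Type} [Field F] [Fintype F] {p : ℕ} [hp : Fact p.Prime]

theorem prod_eq {q n : ℕ} : ∏ i : Fin n, (q ^ n - q ^ (i : ℕ)) =
    q ^ (n * (n - 1) / 2) * ∏ i ∈ Finset.range n, (q ^ (i + 1) - 1) := by
  have h1 : ∀ i : Fin n, q ^ n - q ^ (i : ℕ) = q ^ (i : ℕ) * (q ^ (n - i) - 1) := by
    intro i
    rw [Nat.mul_sub, mul_one, ← pow_add]
    congr 2
    omega
  rw [Finset.prod_congr rfl fun i _ => h1 i, Finset.prod_mul_distrib, Finset.prod_pow_eq_pow_sum]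
  congr 1
  · congr 1
    rw [Fin.sum_univ_eq_sum_range (fun i => i) n, Finset.sum_range_id]
  · rw [Fin.prod_univ_eq_prod_range (fun i => q ^ (n - i) - 1) n]
    rw [← Finset.prod_range_reflect]
    refine Finset.prod_congr rfl fun i hi => ?_
    rw [Finset.mem_range] at hi
    congr 2
    omega

theorem geom {q : ℕ} (hq : 2 ≤ q) (n : ℕ) : (q - 1) * ∑ i ∈ Finset.range n, q ^ i = q ^ n - 1 := by
  rw [mul_comm]
  exact Nat.geomSum_eq hq n ▸ Nat.div_mul_cancel (by simpa using Nat.sub_dvd_pow_sub_pow q 1 n)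

/-- the order -/
theorem card_psl {n : ℕ} (hn : 2 ≤ n) : Nat.card (ProjectiveSpecialLinearGroup (Fin n) F) *
    (Nat.gcd n (Fintype.card F - 1) * (Fintype.card F - 1)) =
    Fintype.card F ^ (n * (n - 1) / 2) * ∏ i ∈ Finset.range n, (Fintype.card F ^ (i + 1) - 1) := by
  rw [← prod_eq, ← Cfsg.Agent.S0243.result (F := F) rfl n hn]
  ring

/-- general criterion -/
theorem of_deg {n : ℕ} (hn : 2 ≤ n) (hpq : ¬ p ∣ Fintype.card F)
    (hpG : p ∣ Nat.card (ProjectiveSpecialLinearGroup (Fin n) F))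
    (χ : IrrCharacter (ProjectiveSpecialLinearGroup (Fin n) F)) {t m : ℕ} (ht : ¬ p ∣ t) (hm : ¬ p ∣ m)
    (h : charDegree (χ : ProjectiveSpecialLinearGroup (Fin n) F → ℂ) * t * m * (Fintype.card F - 1) =
      ∏ i ∈ Finset.range n, (Fintype.card F ^ (i + 1) - 1)) :
    NB p (ProjectiveSpecialLinearGroup (Fin n) F) := by
  have hq : 2 ≤ Fintype.card F := Fintype.one_lt_card
  have h1 := card_psl (F := F) hn
  rw [← h] at h1
  have h2 : Nat.card (ProjectiveSpecialLinearGroup (Fin n) F) * Nat.gcd n (Fintype.card F - 1) =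
      charDegree (χ : ProjectiveSpecialLinearGroup (Fin n) F → ℂ) * (Fintype.card F ^ (n * (n - 1) / 2) * t * m) := by
    refine Nat.eq_of_mul_eq_mul_right (show 0 < Fintype.card F - 1 by omega) ?_
    linarith
  obtain ⟨c, hc⟩ : charDegree (χ : ProjectiveSpecialLinearGroup (Fin n) F → ℂ) ∣
      Nat.card (ProjectiveSpecialLinearGroup (Fin n) F) := Cfsg.Agent.Blocks.Knorr.charDegree_dvd χ.2
  have hd0 : 0 < charDegree (χ : ProjectiveSpecialLinearGroup (Fin n) F → ℂ) := by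
    rcases Nat.eq_zero_or_pos (charDegree (χ : ProjectiveSpecialLinearGroup (Fin n) F → ℂ)) with h0 | h0
    · rw [h0, zero_mul] at hc
      exact (Nat.card_pos.ne' hc).elim
    · exact h0
  have h3 : c * Nat.gcd n (Fintype.card F - 1) = Fintype.card F ^ (n * (n - 1) / 2) * t * m := by
    refine Nat.eq_of_mul_eq_mul_left hd0 ?_
    rw [← h2, hc]
    ring
  have h4 : ¬ p ∣ c := by
    intro hpc
    have h5 : p ∣ Fintype.card F ^ (n * (n - 1) / 2) * t * m := by
      rw [← h3]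
      exact hpc.mul_right _
    rcases hp.out.dvd_mul.1 h5 with h6 | h6
    · rcases hp.out.dvd_mul.1 h6 with h7 | h7
      · exact hpq (hp.out.dvd_of_dvd_pow h7)
      · exact ht h7
    · exact hm h6
  refine NB.of_dz' χ ?_ ?_
  · intro h5
    rw [h5, one_mul] at hc
    exact h4 (hc ▸ hpG)
  · rw [hc, Nat.mul_div_cancel_left _ hd0]
    exact h4

omit hp in
theorem not_dvd_gcd {n q : ℕ} (hq : 2 ≤ q) (hls : ¬ p ∣ ∑ i ∈ Finset.range n, q ^ i) :
    ¬ p ∣ Nat.gcd n (q - 1) := by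
  intro h6
  have h7 : p ∣ q - 1 := h6.trans (Nat.gcd_dvd_right _ _)
  have h8 : p ∣ n := h6.trans (Nat.gcd_dvd_left _ _)
  apply hls
  have h9 : q ≡ 1 [MOD p] := ((Nat.modEq_iff_dvd' (by omega)).2 h7).symm
  have h10 : ∑ i ∈ Finset.range n, q ^ i ≡ ∑ i ∈ Finset.range n, 1 [MOD p] := by
    refine Nat.ModEq.sum fun i _ => ?_
    have := h9.pow i
    rwa [one_pow] at this
  rw [Finset.sum_const, Finset.card_range, smul_eq_mul, mul_one] at h10
  exact (Nat.modEq_zero_iff_dvd.1 (h10.trans (Nat.modEq_zero_iff_dvd.2 h8)))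

theorem cusp {n : ℕ} (hn : 2 ≤ n) (hpq : ¬ p ∣ Fintype.card F)
    (hpG : p ∣ Nat.card (ProjectiveSpecialLinearGroup (Fin n) F))
    (hls : ¬ p ∣ ∑ i ∈ Finset.range n, Fintype.card F ^ i) :
    NB p (ProjectiveSpecialLinearGroup (Fin n) F) := by
  have hq : 2 ≤ Fintype.card F := Fintype.one_lt_card
  obtain ⟨φ, t, ht, h⟩ := H113.PSL.Degrees.exists_cusp (F := F) hn (H113.PSL.Main.hasCusp F n (by omega))
  have ht' : ¬ p ∣ t := fun h' => not_dvd_gcd hq hls (h'.trans ht)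
  refine of_deg hn hpq hpG φ ht' hls ?_
  obtain ⟨m, rfl⟩ : ∃ m, n = m + 1 := ⟨n - 1, by omega⟩
  rw [Finset.prod_range_succ, h, ← geom hq (m + 1)]
  simp only [Nat.add_sub_cancel]
  ring

theorem hyper {n : ℕ} (hn : 3 ≤ n) (hpq : ¬ p ∣ Fintype.card F)
    (hpG : p ∣ Nat.card (ProjectiveSpecialLinearGroup (Fin n) F))
    (hls : ¬ p ∣ Fintype.card F ^ (n - 1) - 1) :
    NB p (ProjectiveSpecialLinearGroup (Fin n) F) := by
  have hq : 2 ≤ Fintype.card F := Fintype.one_lt_card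
  obtain ⟨m, rfl⟩ : ∃ m, n = m + 1 := ⟨n - 1, by omega⟩
  obtain ⟨k, rfl⟩ : ∃ k, m = k + 1 := ⟨m - 1, by omega⟩
  obtain ⟨φ, t, ht, h⟩ := H113.PSL.Degrees.exists_hyper (F := F) (m := k + 1) (by omega)
    (H113.PSL.Main.hasCusp F (k + 1) (by omega))
  simp only [Nat.add_sub_cancel] at h hls
  have ht' : ¬ p ∣ t := by
    intro h'
    apply hls
    refine (h'.trans (ht.trans (Nat.gcd_dvd_right _ _))).trans ?_
    simpa using Nat.sub_dvd_pow_sub_pow (Fintype.card F) 1 (k + 1)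
  refine of_deg (by omega) hpq hpG φ ht' hls ?_
  rw [Finset.prod_range_succ, Finset.prod_range_succ]
  rw [mul_right_comm, h]
  ring

theorem two (hp2 : p ≠ 2) (h4 : 4 ≤ Fintype.card F) (h5 : Fintype.card F ≠ 5)
    (hpG : p ∣ Nat.card (ProjectiveSpecialLinearGroup (Fin 2) F))
    (h : p ∣ Fintype.card F + 1) : NB p (ProjectiveSpecialLinearGroup (Fin 2) F) := by
  obtain ⟨χ, hχ, hd⟩ := H690.LTwo.exists_irr_psl h4 h5
  have hcd : charDegree χ = Fintype.card F + 1 := by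
    unfold charDegree
    rw [hd, Complex.natCast_re, Nat.floor_natCast]
  have hpq : ¬ p ∣ Fintype.card F := fun h' =>
    hp.out.one_lt.ne' (Nat.dvd_one.1 ((Nat.dvd_add_right h').1 h))
  refine of_deg (t := 1) (m := Fintype.card F - 1) le_rfl hpq hpG ⟨χ, hχ⟩ ?_ ?_ ?_
  · exact fun h' => hp.out.one_lt.ne' (Nat.dvd_one.1 h')
  · intro h'
    have h6 : p ∣ (Fintype.card F + 1) - (Fintype.card F - 1) := Nat.dvd_sub h h'
    have h7 : Fintype.card F + 1 - (Fintype.card F - 1) = 2 := by omega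
    rw [h7, Nat.prime_dvd_prime_iff_eq hp.out Nat.prime_two] at h6
    exact hp2 h6
  · show charDegree χ * 1 * _ * _ = _
    rw [hcd, Finset.prod_range_succ, Finset.prod_range_succ, Finset.prod_range_zero]
    have h6 : Fintype.card F ^ (1 + 1) - 1 = (Fintype.card F + 1) * (Fintype.card F - 1) := by
      have := Nat.sq_sub_sq (Fintype.card F) 1
      simpa using this
    rw [h6]
    simp only [zero_add, pow_one]
    ring

end

end Cfsg.Agent.H7.NBPsl
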