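import Mathlib

/-!
# Products of two transvections

* `eq_one_of_cubic` : `(M - 1)(M² - (2 - t) M + 1) = 0`, `t ^ q = t`, `p` prime to `q (q² - 1)`,
  `M ^ p ^ j = 1`: then `M = 1`.
-/

set_option autoImplicit false

namespace Cfsg.Agent.H7.NBTrans

open Polynomial

variable {F : Type*} [Field F] {p : ℕ} [hp : Fact p.Prime]

/-- the common roots -/
theorem isCoprime_quad {r k : ℕ} [Fact r.Prime] [CharP F r] {t : F} (ht : t ^ r ^ k = t) (ht0 : t ≠ 0)
    (hpq : ¬ p ∣ (r ^ k) ^ 2 - 1) (j : ℕ) :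
    IsCoprime (X ^ 2 - C (2 - t) * X + 1 : F[X]) (X ^ p ^ j - 1) := by
  rw [Polynomial.isCoprime_iff_aeval_ne_zero_of_isAlgClosed F (AlgebraicClosure F)]
  intro a
  by_contra hcon
  push Not at hcon
  obtain ⟨h1, h2⟩ := hcon
  simp only [map_add, map_sub, map_mul, map_pow, aeval_X, aeval_C, map_one, sub_eq_zero] at h1 h2
  have hchar : CharP (AlgebraicClosure F) r := charP_of_injective_algebraMap
    (algebraMap F (AlgebraicClosure F)).injective r
  set τ := algebraMap F (AlgebraicClosure F) t with hτ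
  have hτq : τ ^ r ^ k = τ := by rw [hτ, ← map_pow, ht]
  have hτ0 : τ ≠ 0 := (_root_.map_ne_zero _).2 ht0
  have h2m : algebraMap F (AlgebraicClosure F) 2 = 2 := map_ofNat _ 2
  rw [h2m] at h1
  -- apply the Frobenius power
  have hfr : ∀ x y : AlgebraicClosure F, (x + y) ^ r ^ k = x ^ r ^ k + y ^ r ^ k := fun x y =>
    add_pow_char_pow x y r k
  have hfrs : ∀ x y : AlgebraicClosure F, (x - y) ^ r ^ k = x ^ r ^ k - y ^ r ^ k := fun x y =>
    sub_pow_char_pow x y k
  have h2q : (2 : AlgebraicClosure F) ^ r ^ k = 2 := by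
    have := hfr 1 1
    rw [one_pow, one_add_one_eq_two] at this
    exact this
  have hr0 : r ^ k ≠ 0 := pow_ne_zero k (Fact.out : r.Prime).ne_zero
  have h3 : (a ^ r ^ k) ^ 2 - (2 - τ) * a ^ r ^ k + 1 = 0 := by
    have h4 := congrArg (fun x => x ^ r ^ k) h1
    simp only [hfr, hfrs, mul_pow, h2q, hτq, one_pow, zero_pow hr0] at h4
    rw [← pow_mul, mul_comm (r ^ k) 2, pow_mul]
    exact h4
  set b := a ^ r ^ k with hb
  have h5 : (a - b) * (a * b - 1) = 0 := by
    linear_combination b * h1 - a * h3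
  have ha0 : a ≠ 0 := by
    rintro rfl
    rw [zero_pow (pow_ne_zero j hp.out.ne_zero)] at h2
    exact zero_ne_one h2
  have hq1 : 1 ≤ r ^ k := Nat.one_le_pow _ _ (Fact.out : r.Prime).pos
  have h6 : a ^ ((r ^ k) ^ 2 - 1) = 1 := by
    have e : (r ^ k) ^ 2 - 1 = (r ^ k + 1) * (r ^ k - 1) := by
      have := Nat.sq_sub_sq (r ^ k) 1
      simpa using this
    rcases mul_eq_zero.1 h5 with h | h
    · have h7 : a ^ (r ^ k - 1) = 1 := by
        have h8 : a ^ (r ^ k - 1) * a = 1 * a := by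
          rw [← pow_succ, Nat.sub_add_cancel hq1, one_mul, ← hb]
          exact (sub_eq_zero.1 h).symm
        exact mul_right_cancel₀ ha0 h8
      rw [e, mul_comm, pow_mul, h7, one_pow]
    · have h7 : a ^ (r ^ k + 1) = 1 := by
        rw [pow_succ', ← hb]
        exact sub_eq_zero.1 h
      rw [e, pow_mul, h7, one_pow]
  have h7 : orderOf a ∣ Nat.gcd (p ^ j) ((r ^ k) ^ 2 - 1) :=
    Nat.dvd_gcd (orderOf_dvd_of_pow_eq_one h2) (orderOf_dvd_of_pow_eq_one h6)
  have h8 : Nat.gcd (p ^ j) ((r ^ k) ^ 2 - 1) = 1 :=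
    Nat.Coprime.pow_left j ((hp.out.coprime_iff_not_dvd).2 hpq)
  rw [h8, Nat.dvd_one, orderOf_eq_one_iff] at h7
  rw [h7] at h1
  exact hτ0 (by linear_combination h1)

theorem eq_one_of_cubic {R : Type*} [Ring R] [Algebra F R] {r k : ℕ} [Fact r.Prime] [CharP F r]
    (hpr : p ≠ r) {t : F} (ht : t ^ r ^ k = t) (hpq : ¬ p ∣ (r ^ k) ^ 2 - 1) {M : R}
    (hM : (M - 1) * (M ^ 2 - (2 - t) • M + 1) = 0) {j : ℕ} (hj : M ^ p ^ j = 1) : M = 1 := by
  by_cases ht0 : t = 0
  · -- unipotent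
    have hr : r.Prime := Fact.out
    have h1 : (M - 1) ^ 3 = 0 := by
      rw [← hM, ht0, sub_zero, ofNat_smul_eq_nsmul]
      noncomm_ring
    have h2 : (X - 1 : F[X]) ^ 3 ∣ X ^ r ^ 2 - 1 := by
      have e : (X ^ r ^ 2 - 1 : F[X]) = (X - 1) ^ r ^ 2 := by
        rw [sub_pow_char_pow, one_pow]
      rw [e]
      refine pow_dvd_pow _ ?_
      have := hr.two_le
      nlinarith
    obtain ⟨g, hg⟩ := h2
    have h3 : M ^ r ^ 2 = 1 := by
      have h4 := congrArg (aeval M) hg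
      simp only [map_mul, map_sub, map_pow, aeval_X, map_one] at h4
      rw [h1, zero_mul, sub_eq_zero] at h4
      exact h4
    have h4 : orderOf M ∣ Nat.gcd (p ^ j) (r ^ 2) :=
      Nat.dvd_gcd (orderOf_dvd_of_pow_eq_one hj) (orderOf_dvd_of_pow_eq_one h3)
    have h5 : Nat.gcd (p ^ j) (r ^ 2) = 1 :=
      Nat.Coprime.pow_left j (Nat.Coprime.pow_right 2 ((Nat.coprime_primes hp.out hr).2 hpr))
    rw [h5, Nat.dvd_one, orderOf_eq_one_iff] at h4
    exact h4
  · obtain ⟨u, v, huv⟩ := isCoprime_quad (p := p) ht ht0 hpq j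
    have h1 := congrArg (aeval M) huv
    have h2 : aeval M (X ^ 2 - C (2 - t) * X + 1 : F[X]) = M ^ 2 - (2 - t) • M + 1 := by
      simp only [map_add, map_sub, map_mul, map_pow, aeval_X, aeval_C, map_one, Algebra.smul_def]
    have h3 : aeval M (X ^ p ^ j - 1 : F[X]) = 0 := by
      simp only [map_sub, map_pow, aeval_X, map_one, hj, sub_self]
    rw [map_add, map_mul, map_mul, h3, mul_zero, add_zero, h2, map_one] at h1
    have h4 : M - 1 = (M - 1) * (M ^ 2 - (2 - t) • M + 1) * aeval M u := by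
      have hcomm : Commute (aeval M u) (M ^ 2 - (2 - t) • M + 1) := by
        rw [← h2]
        exact (Commute.all u (X ^ 2 - C (2 - t) * X + 1 : F[X])).map (aeval M)
      rw [mul_assoc, ← hcomm.eq, h1, mul_one]
    rw [hM, zero_mul, sub_eq_zero] at h4
    exact h4

end Cfsg.Agent.H7.NBTrans
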