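import Mathlib
import Cfsg.Agent.H7.NB.Trans
import Cfsg.Agent.H7.NBpCount
import Cfsg.Agent.LieClassical.HermSimple
import Cfsg.Agent.LieClassical.SUBasic

/-!
# `PSU_n(q)`, `n ≥ 3`, `p` prime to `q (q² - 1)`: more than one `p`-block

* `nb_psu_star` (transvections).
-/

set_option autoImplicit false

namespace Cfsg.Agent.H7.NBPsu

open Cfsg Matrix Cfsg.Agent.H7.NBp Cfsg.Agent.LieClassical.HermBasic Cfsg.Agent.LieClassical.HermSiegel

variable {F : Type*} [Field F] [Fintype F] {q n : ℕ}

omit [Fintype F] in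
/-- the abstract cubic relation -/
theorem cubic_aux {N : Matrix (Fin n) (Fin n) F} {u w : Fin n → F} {a b t : F} (hab : a * b = -t)
    (hN : ∀ v, ∃ x y : F, N *ᵥ v = x • u + y • w) (hu : N *ᵥ u = -t • u + a • w) (hw : N *ᵥ w = b • u) :
    N * ((N + 1) ^ 2 - (2 - t) • (N + 1) + 1) = 0 := by
  have h1 : N * ((N + 1) ^ 2 - (2 - t) • (N + 1) + 1) = (N * N + t • N + t • 1) * N := by
    have e1 : (2 - t) • (N + 1) = N + N + 1 + 1 - t • N - t • 1 := by
      rw [sub_smul, two_smul, smul_add]
      abel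
    rw [e1]
    simp only [mul_add, mul_sub, add_mul, mul_one, smul_mul_assoc, mul_smul_comm, one_mul, pow_two, mul_assoc]
    abel
  rw [h1]
  apply Matrix.ext_of_mulVec_single
  intro i
  rw [← Matrix.mulVec_mulVec, Matrix.zero_mulVec]
  obtain ⟨x, y, hxy⟩ := hN (Pi.single i 1)
  rw [hxy]
  have h2 : ∀ v, (N * N + t • N + t • (1 : Matrix (Fin n) (Fin n) F)) *ᵥ v =
      N *ᵥ (N *ᵥ v) + t • (N *ᵥ v) + t • v := by
    intro v
    rw [Matrix.add_mulVec, Matrix.add_mulVec, ← Matrix.mulVec_mulVec, Matrix.smul_mulVec, Matrix.smul_mulVec,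
      Matrix.one_mulVec]
  rw [h2]
  simp only [Matrix.mulVec_add, Matrix.mulVec_smul, hu, hw]
  funext j
  simp only [Pi.add_apply, Pi.smul_apply, smul_eq_mul, Pi.zero_apply]
  linear_combination (x * u j + y * w j) * hab

/-- the cubic relation for a product of two transvections -/
theorem cubic (hF : Fintype.card F = q ^ 2) {u w : Fin n → F} {μ ν : F} (h : IsSiegel q u 0 μ)
    (h' : IsSiegel q w 0 ν) :
    (mat (siegel hF u 0 μ h * (siegel hF w 0 ν h')⁻¹) - 1) *
      (mat (siegel hF u 0 μ h * (siegel hF w 0 ν h')⁻¹) ^ 2 -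
        (2 - μ * ν * (hermForm n F q w u * hermForm n F q u w)) •
          mat (siegel hF u 0 μ h * (siegel hF w 0 ν h')⁻¹) + 1) = 0 := by
  have hν : ν ^ q = -ν := by
    have := h'.tr
    rw [herm_zero_left, add_zero] at this
    linear_combination this
  set M := mat (siegel hF u 0 μ h * (siegel hF w 0 ν h')⁻¹) with hM
  have hact : ∀ v, (M - 1) *ᵥ v = (μ * (hermForm n F q v u - ν * hermForm n F q v w * hermForm n F q w u)) • u +
      (-ν * hermForm n F q v w) • w := by
    intro v
    rw [Matrix.sub_mulVec, Matrix.one_mulVec]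
    change act (siegel hF u 0 μ h * (siegel hF w 0 ν h')⁻¹) v - v = _
    rw [act_mul, siegel_inv hF h', act_siegel hF (h'.inv hF), act_siegel hF h, hν, neg_zero]
    simp only [herm_add_left, herm_smul_left, herm_zero_right hF, smul_zero, add_zero, sub_zero]
    funext j
    simp only [Pi.add_apply, Pi.sub_apply, Pi.smul_apply, smul_eq_mul]
    ring
  have h1 : M = (M - 1) + 1 := by abel
  have h2 := cubic_aux (N := M - 1) (u := u) (w := w)
    (a := -ν * hermForm n F q u w) (b := μ * hermForm n F q w u)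
    (t := μ * ν * (hermForm n F q w u * hermForm n F q u w)) (by ring)
    (fun v => ⟨_, _, hact v⟩) ?_ ?_
  · rw [← h1] at h2
    exact h2
  · rw [hact, h.iso]
    congr 1
    congr 1
    ring
  · rw [hact, h'.iso]
    simp

/-- a central element of `SU_n` is a scalar -/
theorem center_scalar (hF : Fintype.card F = q ^ 2) (hn : 3 ≤ n) {z : SU n F q}
    (hz : z ∈ Subgroup.center (SU n F q)) : ∃ c : F, mat z = c • (1 : Matrix (Fin n) (Fin n) F) := by
  obtain ⟨c, hcn, hcq, rfl⟩ := (LieClassical.SUBasic.mem_center_SU_iff hF hn z).1 hz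
  refine ⟨c, ?_⟩
  change Matrix.diagonal (fun _ => c) = _
  rw [Matrix.smul_one_eq_diagonal]

/-- a vector orthogonal to two vectors -/
theorem exists_orth (hF : Fintype.card F = q ^ 2) (hn : 3 ≤ n) (u w : Fin n → F) :
    ∃ v : Fin n → F, v ≠ 0 ∧ hermForm n F q v u = 0 ∧ hermForm n F q v w = 0 := by
  let f : (Fin n → F) →ₗ[F] (Fin 2 → F) :=
    { toFun := fun v => ![hermForm n F q v u, hermForm n F q v w]
      map_add' := fun v v' => by
        funext i
        fin_cases i
        · exact herm_add_left _ _ _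
        · exact herm_add_left _ _ _
      map_smul' := fun c v => by
        funext i
        fin_cases i
        · exact herm_smul_left _ _ _
        · exact herm_smul_left _ _ _ }
  have hni : ¬ Function.Injective f := by
    intro hinj
    have h1 := LinearMap.finrank_le_finrank_of_injective hinj
    rw [Module.finrank_fin_fun, Module.finrank_fin_fun] at h1
    omega
  rw [← LinearMap.ker_eq_bot] at hni
  obtain ⟨v, hv, hv0⟩ := Submodule.exists_mem_ne_zero_of_ne_bot hni
  refine ⟨v, hv0, ?_, ?_⟩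
  · exact congrFun (LinearMap.mem_ker.1 hv) 0
  · exact congrFun (LinearMap.mem_ker.1 hv) 1

omit [Fintype F] in
theorem mat_pow (g : SU n F q) (m : ℕ) : mat (g ^ m) = mat g ^ m := by
  induction m with
  | zero => rfl
  | succ m ih => rw [pow_succ, pow_succ, mat_mul, ih]

/-- **`PSU_n(q)`, `p` prime to `q (q² - 1)`.** -/
theorem nb_psu_star {p : ℕ} [hp : Fact p.Prime] (hF : Fintype.card F = q ^ 2) (hn : 3 ≤ n)
    (hpq : ¬ p ∣ q) (hpq2 : ¬ p ∣ q ^ 2 - 1) : NB p (PSU n F q) := by
  classical
  obtain ⟨r, k, hr, hchar, hk, hk0⟩ := exists_prime_pow hF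
  have : Fact r.Prime := ⟨hr⟩
  have hpr : p ≠ r := by
    rintro rfl
    apply hpq
    rw [hk]
    exact dvd_pow_self _ hk0.ne'
  let Tr : Set (SU n F q) := {y | ∃ (u : Fin n → F) (μ : F) (h : IsSiegel q u 0 μ),
    u ≠ 0 ∧ μ ≠ 0 ∧ y = siegel hF u 0 μ h}
  let π : SU n F q →* PSU n F q := QuotientGroup.mk' (Subgroup.center (SU n F q))
  have hπ : ∀ g, π g = 1 ↔ g ∈ Subgroup.center (SU n F q) := fun g => QuotientGroup.eq_one_iff _
  -- products which are `p`-elements
  have key : ∀ y ∈ Tr, ∀ z ∈ Tr, ∀ j : ℕ, (π y * (π z)⁻¹) ^ p ^ j = 1 → y = z := by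
    rintro y ⟨u, μ, h, hu, hμ, rfl⟩ z ⟨w, ν, h', hw, hν, rfl⟩ j hj
    rw [← map_inv, ← map_mul, ← map_pow, hπ] at hj
    obtain ⟨c, hc⟩ := center_scalar hF hn hj
    set g := siegel hF u 0 μ h * (siegel hF w 0 ν h')⁻¹ with hg
    obtain ⟨v, hv0, hvu, hvw⟩ := exists_orth hF hn u w
    have hfix : mat g *ᵥ v = v := by
      change act g v = v
      rw [hg, act_mul, siegel_inv hF h', act_siegel_of_orth hF (h'.inv hF) hvw (by rw [neg_zero, herm_zero_right hF]),
        act_siegel_of_orth hF h hvu (herm_zero_right hF _)]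
    have hfixp : ∀ m : ℕ, mat g ^ m *ᵥ v = v := by
      intro m
      induction m with
      | zero => rw [pow_zero, Matrix.one_mulVec]
      | succ m ih => rw [pow_succ, ← Matrix.mulVec_mulVec, hfix, ih]
    have hc1 : c = 1 := by
      have h1 := hfixp (p ^ j)
      rw [← mat_pow, hc, Matrix.smul_mulVec, Matrix.one_mulVec] at h1
      have h2 : (c - 1) • v = 0 := by rw [sub_smul, h1, one_smul, sub_self]
      rcases smul_eq_zero.1 h2 with h3 | h3
      · exact sub_eq_zero.1 h3
      · exact (hv0 h3).elim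
    have hpow : mat g ^ p ^ j = 1 := by
      rw [← mat_pow, hc, hc1, one_smul]
    have hμq : μ ^ q = -μ := by
      have := h.tr
      rw [herm_zero_left, add_zero] at this
      linear_combination this
    have hνq : ν ^ q = -ν := by
      have := h'.tr
      rw [herm_zero_left, add_zero] at this
      linear_combination this
    have ht : (μ * ν * (hermForm n F q w u * hermForm n F q u w)) ^ r ^ k =
        μ * ν * (hermForm n F q w u * hermForm n F q u w) := by
      rw [← hk, mul_pow, mul_pow, mul_pow, hμq, hνq]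
      have e1 : hermForm n F q u w = hermForm n F q w u ^ q := herm_swap hF w u
      rw [e1, pow_q_pow_q hF]
      ring
    have h3 := NBTrans.eq_one_of_cubic (p := p) hpr ht (by rw [← hk]; exact hpq2) (cubic hF h h') hpow
    have h4 : g = 1 := mat_injective (by rw [mat_one]; exact h3)
    exact mul_inv_eq_one.1 h4
  -- a transvection
  obtain ⟨y, hy⟩ : ∃ y, y ∈ Tr := by
    let i0 : Fin n := ⟨0, by omega⟩
    let i1 : Fin n := ⟨1, by omega⟩
    have h01 : i0 ≠ i1 := by simp [i0, i1]
    obtain ⟨P, P', a, b, ha, hP, hP', hpp, hp'p', hpp'⟩ := LieClassical.HermGen.exists_hyp_pair (q := q) hF h01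
    have hp0 : P ≠ 0 := by
      rintro h
      rw [h, herm_zero_left] at hpp'
      exact zero_ne_one hpp'
    obtain ⟨κ, hκ0, hκ⟩ := exists_trace_zero_ne hF
    have hs : IsSiegel q P 0 κ := ⟨hpp, herm_zero_left P, by rw [herm_zero_left, add_zero]; exact hκ⟩
    exact ⟨_, P, κ, hs, hp0, hκ0, rfl⟩
  have hfin : Finite (PSU n F q) := inferInstance
  refine NB.of_unique (K := {x | ∃ y ∈ Tr, x = π y}) (g := π y) ?_ ?_ ⟨y, hy, rfl⟩ ?_
  · rintro x _ ⟨z, ⟨u, μ, h, hu, hμ, rfl⟩, rfl⟩
    obtain ⟨s, rfl⟩ := QuotientGroup.mk'_surjective _ x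
    have hs : IsSiegel q (act s u) 0 μ := by
      have := h.map s
      rwa [act_zero] at this
    refine ⟨_, ⟨act s u, μ, hs, ?_, hμ, rfl⟩, ?_⟩
    · rw [Ne, act_eq_zero]
      exact hu
    · have h1 : s * siegel hF u 0 μ h * s⁻¹ = siegel hF (act s u) 0 μ hs := by
        rw [conj_siegel]
        exact siegel_congr hF _ _ rfl (act_zero s) rfl
      rw [← h1, map_mul, map_mul, map_inv]
  · -- `y` is not a `p`-element modulo the center
    rintro ⟨j, hj⟩
    obtain ⟨u, μ, h, hu, hμ, rfl⟩ := hy
    rw [← map_pow, hπ] at hj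
    obtain ⟨c, hc⟩ := center_scalar hF hn hj
    set g := siegel hF u 0 μ h with hg
    have hact : ∀ v, mat g *ᵥ v = v + (μ * hermForm n F q v u) • u := by
      intro v
      change act g v = _
      rw [hg, act_siegel, herm_zero_right hF]
      simp
    have hfix : mat g *ᵥ u = u := by
      rw [hact, h.iso]
      simp
    have hfixp : ∀ m : ℕ, mat g ^ m *ᵥ u = u := by
      intro m
      induction m with
      | zero => rw [pow_zero, Matrix.one_mulVec]
      | succ m ih => rw [pow_succ, ← Matrix.mulVec_mulVec, hfix, ih]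
    have hc1 : c = 1 := by
      have h1 := hfixp (p ^ j)
      rw [← mat_pow, hc, Matrix.smul_mulVec, Matrix.one_mulVec] at h1
      have h2 : (c - 1) • u = 0 := by rw [sub_smul, h1, one_smul, sub_self]
      rcases smul_eq_zero.1 h2 with h3 | h3
      · exact sub_eq_zero.1 h3
      · exact (hu h3).elim
    have hpow : mat g ^ p ^ j = 1 := by
      rw [← mat_pow, hc, hc1, one_smul]
    have hcub : (mat g - 1) * (mat g ^ 2 - (2 - (0 : F)) • mat g + 1) = 0 := by
      have h1 : (mat g - 1) * (mat g - 1) = 0 := by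
        apply Matrix.ext_of_mulVec_single
        intro i
        have e1 : (mat g - 1) *ᵥ (Pi.single i 1) = (μ * hermForm n F q (Pi.single i 1) u) • u := by
          rw [Matrix.sub_mulVec, Matrix.one_mulVec, hact, add_sub_cancel_left]
        rw [← Matrix.mulVec_mulVec, Matrix.zero_mulVec, e1, Matrix.mulVec_smul, Matrix.sub_mulVec,
          Matrix.one_mulVec, hfix, sub_self, smul_zero]
      have h2 : mat g ^ 2 - (2 - (0 : F)) • mat g + 1 = (mat g - 1) * (mat g - 1) := by
        rw [sub_zero, two_smul]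
        simp only [mul_sub, sub_mul, mul_one, one_mul, pow_two]
        abel
      rw [h2, h1, mul_zero]
    have h3 := NBTrans.eq_one_of_cubic (p := p) (k := k) hpr
      (zero_pow (pow_ne_zero k hr.ne_zero)) (by rw [← hk]; exact hpq2) hcub hpow
    apply hu
    apply herm_nondeg hF
    intro v
    have h4 := hact v
    rw [h3, Matrix.one_mulVec] at h4
    have h5 : (μ * hermForm n F q v u) • u = 0 := by
      have := congrArg (fun x => x - v) h4
      simpa using this.symm
    rcases smul_eq_zero.1 h5 with h6 | h6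
    · have h7 : hermForm n F q v u = 0 := (mul_eq_zero.1 h6).resolve_left hμ
      rw [herm_swap hF v u, h7, zero_pow_q hF]
    · exact (hu h6).elim
  · rintro _ ⟨z, hz, rfl⟩ j hj
    rw [key y hy z hz j hj]

end Cfsg.Agent.H7.NBPsu
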